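import Mathlib
import Cfsg.Agent.Lib.Helper9.S3805.Defs
import Cfsg.Agent.Lib.Helper3.ExcPair

/-!
# S3805 package PkgExc (helper20): existence of the exceptional pair `E, F` with
`1 + E - F = Ind_{C1}^G (1 - ν)`.
-/

set_option autoImplicit false
set_option maxRecDepth 100000

namespace Cfsg.Agent.Lib.Helper20.S3805

open Cfsg.Agent.Lib.Helper9.S3805
open Cfsg.Agent.Lib.Helper3

universe u

/-- Exponent of a rotation of `D₃` (and `0` on reflections). -/
def rexp : DihedralGroup 3 → ℕ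
  | DihedralGroup.r k => k.val
  | DihedralGroup.sr _ => 0

/-- Exponent of the first coordinate. -/
def ee (p : P) : ℕ := rexp p.1

theorem d3_mul : ∀ x y : DihedralGroup 3, isRot x = true → isRot y = true →
    isRot (x * y) = true ∧ rexp (x * y) % 3 = (rexp x + rexp y) % 3 := by decide

theorem d3_inv : ∀ x : DihedralGroup 3, isRot x = true → isRot x⁻¹ = true := by decide

theorem d3_conj : ∀ q x : DihedralGroup 3, isRot x = true → isRot (q * x * q⁻¹) = true := by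
  decide

theorem d3_conj_inv : ∀ q x : DihedralGroup 3, isRot q = false → isRot x = true →
    (rexp (q * x * q⁻¹) + rexp x) % 3 = 0 := by decide

theorem d3_A1 : ∀ x : DihedralGroup 3, isRot x = true → rexp x % 3 ≠ 0 → x ≠ 1 := by decide

theorem d3_A1' : ∀ x : DihedralGroup 3, isRot x = true → x ≠ 1 → rexp x % 3 ≠ 0 := by decide

theorem inA1_iff (p : P) : inA1 p = true ↔ inC1 p = true ∧ ee p % 3 ≠ 0 := by
  unfold inA1 inC1 ee
  constructor
  · intro h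
    rw [Bool.and_eq_true] at h
    obtain ⟨h1, h2⟩ := h
    refine ⟨h1, d3_A1' p.1 h1 ?_⟩
    simpa using h2
  · rintro ⟨h1, h2⟩
    rw [Bool.and_eq_true]
    refine ⟨h1, ?_⟩
    have := d3_A1 p.1 h1 h2
    simpa using this

/-- `C1₀ = rot × D₃` as a subgroup of `P`. -/
def C0 : Subgroup P where
  carrier := {p | inC1 p = true}
  mul_mem' := fun {p q} hp hq => (d3_mul p.1 q.1 hp hq).1
  one_mem' := by decide
  inv_mem' := fun {p} hp => d3_inv p.1 hp

theorem mem_C0 (p : P) : p ∈ C0 ↔ inC1 p = true := Iff.rfl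

instance : DecidablePred (· ∈ C0) := fun p => inferInstanceAs (Decidable (inC1 p = true))

theorem card_C0 : Nat.card ↥C0 = 18 := by
  rw [Nat.card_eq_fintype_card, Fintype.card_subtype]
  decide

theorem card_P : Nat.card P = 36 := by
  rw [Nat.card_eq_fintype_card]
  decide

/-- A primitive cube root of unity as a unit of `ℂ`. -/
theorem exists_omega : ∃ w : ℂˣ, w ^ 3 = 1 ∧ w ^ 2 ≠ 1 ∧
    ∀ n : ℕ, n % 3 ≠ 0 → (((w ^ n : ℂˣ) : ℂ) + (((w ^ n)⁻¹ : ℂˣ) : ℂ) = -1) := by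
  have hζ := Complex.isPrimitiveRoot_exp 3 (by norm_num)
  obtain ⟨ζ, hζe⟩ : ∃ ζ : ℂ, ζ = Complex.exp (2 * Real.pi * Complex.I / (3 : ℕ)) := ⟨_, rfl⟩
  rw [← hζe] at hζ
  have h3 : ζ ^ 3 = 1 := hζ.pow_eq_one
  have h1 : ζ ≠ 1 := hζ.ne_one (by norm_num)
  have h0 : ζ ≠ 0 := hζ.ne_zero (by norm_num)
  have hsum : 1 + ζ + ζ ^ 2 = 0 := by
    have := hζ.geom_sum_eq_zero (by norm_num : 1 < 3)
    simpa [Finset.sum_range_succ] using this
  have hw3 : (Units.mk0 ζ h0) ^ 3 = 1 := by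
    apply Units.ext
    rw [Units.val_pow_eq_pow_val, Units.val_mk0, Units.val_one, h3]
  refine ⟨Units.mk0 ζ h0, hw3, ?_, ?_⟩
  · intro h2
    apply h1
    have h2' : ζ ^ 2 = 1 := by
      have := congrArg (fun u : ℂˣ => (u : ℂ)) h2
      simpa using this
    have : ζ ^ 3 = ζ * ζ ^ 2 := by ring
    rw [h3, h2', mul_one] at this
    exact this.symm
  · intro n hn
    have hval : ∀ m : ℕ, ((((Units.mk0 ζ h0) ^ m : ℂˣ) : ℂ) = ζ ^ m) := by
      intro m
      rw [Units.val_pow_eq_pow_val, Units.val_mk0]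
    have hinv : ∀ m : ℕ, ((((Units.mk0 ζ h0) ^ m)⁻¹ : ℂˣ) : ℂ) = (ζ ^ m)⁻¹ := by
      intro m
      rw [Units.val_inv_eq_inv_val, hval]
    rw [pow_eq_pow_mod n hw3, hval, hinv]
    have hlt : n % 3 < 3 := Nat.mod_lt _ (by norm_num)
    have hc : n % 3 = 1 ∨ n % 3 = 2 := by omega
    rcases hc with hc | hc
    · rw [hc, pow_one]
      have hi : ζ⁻¹ = ζ ^ 2 := by
        rw [inv_eq_iff_eq_inv]
        symm
        apply inv_eq_of_mul_eq_one_left
        rw [← h3]; ring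
      rw [hi]
      linear_combination hsum
    · rw [hc]
      have hi : (ζ ^ 2)⁻¹ = ζ := by
        apply inv_eq_of_mul_eq_one_left
        rw [← h3]; ring
      rw [hi]
      linear_combination hsum

/-- The linear character `ν₀ (r k, s) = w ^ k` of `C1₀`. -/
noncomputable def nu0 (w : ℂˣ) (hw3 : w ^ 3 = 1) : ↥C0 →* ℂˣ :=
  MonoidHom.mk' (fun p => w ^ ee (p : P)) (by
    intro p q
    have h := (d3_mul (p : P).1 (q : P).1 p.2 q.2).2
    show w ^ ee ((p : P) * (q : P)) = w ^ ee (p : P) * w ^ ee (q : P)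
    rw [← pow_add, pow_eq_pow_mod (ee ((p : P) * (q : P))) hw3,
      pow_eq_pow_mod (ee (p : P) + ee (q : P)) hw3]
    congr 1)

/-- `C1 = ψ(C1₀)`. -/
abbrev CG {G : Type u} [Group G] {T : Subgroup G} (M : Model G T) : Subgroup G := C0.map M.ψ

theorem mem_CG {G : Type u} [Group G] {T : Subgroup G} (M : Model G T) (y : G) :
    y ∈ CG M ↔ ∃ p : P, inC1 p = true ∧ M.ψ p = y := by
  rw [Subgroup.mem_map]
  constructor
  · rintro ⟨p, hp, rfl⟩
    exact ⟨p, hp, rfl⟩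
  · rintro ⟨p, hp, rfl⟩
    exact ⟨p, hp, rfl⟩

/-- The linear character `ν` of `C1`. -/
noncomputable def nu {G : Type u} [Group G] {T : Subgroup G} (M : Model G T) (w : ℂˣ)
    (hw3 : w ^ 3 = 1) : ↥(CG M) →* ℂˣ :=
  (nu0 w hw3).comp (C0.equivMapOfInjective M.ψ M.inj).symm.toMonoidHom

theorem nu_eq {G : Type u} [Group G] {T : Subgroup G} (M : Model G T) (w : ℂˣ)
    (hw3 : w ^ 3 = 1) (y : ↥(CG M)) (p : P) (hp : inC1 p = true) (h : (y : G) = M.ψ p) :
    nu M w hw3 y = w ^ ee p := by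
  have h1 : (C0.equivMapOfInjective M.ψ M.inj).symm y = ⟨p, hp⟩ := by
    rw [MulEquiv.symm_apply_eq]
    apply Subtype.ext
    rw [Subgroup.coe_equivMapOfInjective_apply]
    exact h
  show nu0 w hw3 ((C0.equivMapOfInjective M.ψ M.inj).symm y) = _
  rw [h1]
  rfl

theorem pkgExc : PkgExc.{u} := by
  intro hTIA G _ _ T M hLoc
  classical
  have : Fintype G := Fintype.ofFinite G
  obtain ⟨w, hw3, hw2, hwsum⟩ := exists_omega
  obtain ⟨C, hCdef⟩ : ∃ C : Subgroup G, C = CG M := ⟨_, rfl⟩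
  obtain ⟨N, hNdef⟩ : ∃ N : Subgroup G, N = Subgroup.normalizer (T : Set G) := ⟨_, rfl⟩
  subst hCdef
  have hNr : N = M.ψ.range := by rw [hNdef, M.range_eq]
  have hCN : CG M ≤ N := by
    intro y hy
    obtain ⟨p, _, rfl⟩ := (mem_CG M y).1 hy
    rw [hNr]
    exact ⟨p, rfl⟩
  have hcard : Nat.card N = 2 * Nat.card (CG M) := by
    have h1 : Nat.card N = 36 := by
      rw [hNr, ← card_P]
      exact Nat.card_congr (MonoidHom.ofInjective M.inj).toEquiv.symm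
    have h2 : Nat.card (CG M) = 18 := by
      rw [← card_C0]
      exact Nat.card_congr (C0.equivMapOfInjective M.ψ M.inj).toEquiv.symm
    rw [h1, h2]
  have hnorm : ∀ x ∈ N, ∀ y ∈ CG M, x * y * x⁻¹ ∈ CG M := by
    intro x hx y hy
    rw [hNr] at hx
    obtain ⟨q, rfl⟩ := hx
    obtain ⟨p, hp, rfl⟩ := (mem_CG M y).1 hy
    refine (mem_CG M _).2 ⟨q * p * q⁻¹, d3_conj q.1 p.1 hp, ?_⟩
    rw [map_mul, map_mul, map_inv]
  have hinv : ∀ (x : G) (hx : x ∈ N), x ∉ CG M → ∀ y : CG M,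
      nu M w hw3 ⟨x * y * x⁻¹, hnorm x hx y y.2⟩ = (nu M w hw3 y)⁻¹ := by
    intro x hx hxC y
    have hx' := hx
    rw [hNr] at hx'
    obtain ⟨q, rfl⟩ := hx'
    have hq : inC1 q = false := by
      by_contra hq
      rw [Bool.not_eq_false] at hq
      exact hxC ((mem_CG M _).2 ⟨q, hq, rfl⟩)
    obtain ⟨p, hp, hpe⟩ := (mem_CG M _).1 y.2
    have e1 := nu_eq M w hw3 ⟨M.ψ q * y * (M.ψ q)⁻¹, hnorm _ hx y y.2⟩ (q * p * q⁻¹)
      (d3_conj q.1 p.1 hp) (by
        show M.ψ q * (y : G) * (M.ψ q)⁻¹ = M.ψ (q * p * q⁻¹)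
        rw [map_mul, map_mul, map_inv, hpe])
    have e2 := nu_eq M w hw3 y p hp hpe.symm
    rw [e1, e2]
    apply eq_inv_of_mul_eq_one_left
    rw [← pow_add, pow_eq_pow_mod _ hw3]
    have := d3_conj_inv q.1 p.1 hq hp
    have h3 : (ee (q * p * q⁻¹) + ee p) % 3 = 0 := this
    rw [h3, pow_zero]
  have hTI : ∀ y : CG M, nu M w hw3 y ≠ 1 → ∀ g : G, g * y * g⁻¹ ∈ CG M → g ∈ N := by
    intro y hy g hg
    obtain ⟨p, hp, hpe⟩ := (mem_CG M _).1 y.2
    obtain ⟨q, _, hqe⟩ := (mem_CG M _).1 hg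
    have e2 := nu_eq M w hw3 y p hp hpe.symm
    have hA : inA1 p = true := by
      rw [inA1_iff]
      refine ⟨hp, fun h0 => hy ?_⟩
      rw [e2, pow_eq_pow_mod _ hw3, h0, pow_zero]
    rw [hNdef]
    exact hTIA T M hLoc g p q hA (by rw [hpe, hqe])
  have ha0 : inC1 a₀ = true := by decide
  have hsq : ∃ y : CG M, (nu M w hw3 y) ^ 2 ≠ 1 := by
    refine ⟨⟨M.ψ a₀, (mem_CG M _).2 ⟨a₀, ha0, rfl⟩⟩, ?_⟩
    rw [nu_eq M w hw3 _ a₀ ha0 rfl]
    have : ee a₀ = 1 := by decide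
    rw [this, pow_one]
    exact hw2
  obtain ⟨hn3, hn1⟩ := exc_theta_norm (CG M) N (nu M w hw3) hCN hcard hnorm hinv hTI hsq
  have hgen : Cfsg.IsGeneralizedCharacter G (Cfsg.indFun (CG M) (excF (CG M) (nu M w hw3))) := by
    have e : excF (CG M) (nu M w hw3) = (fun _ : CG M => (1 : ℂ)) -
        (fun y : CG M => ((nu M w hw3 y : ℂˣ) : ℂ)) := by
      funext y
      rfl
    rw [e, indFun_sub]
    exact ⟨_, _, Cfsg.Agent.Lib.Helper75.isCharacter_indFun (CG M)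
        Cfsg.Agent.Lib.Helper80.isCharacter_one,
      Cfsg.Agent.Lib.Helper75.isCharacter_indFun (CG M)
        (Cfsg.Agent.Lib.Helper15.isCharacter_of_hom (nu M w hw3)), rfl⟩
  have h1 : Cfsg.indFun (CG M) (excF (CG M) (nu M w hw3)) 1 = 0 := by
    have := exc_theta_apply (CG M) N (nu M w hw3) hCN hcard hnorm hinv hTI 1
    rw [map_one] at this
    simp only [OneMemClass.coe_one, Units.val_one, inv_one] at this
    rw [this]
    norm_num
  obtain ⟨χ₁, χ₂, hχ₁, hχ₂, hne₁, hne₂, hdeg, hval⟩ :=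
    gen_char_norm_three _ hgen h1 hn3 hn1
  refine ⟨χ₂, χ₁, ⟨hχ₂, hχ₁, hne₂, hne₁, hdeg, ?_, ?_⟩⟩
  · intro g hg
    have hzero : Cfsg.indFun (CG M) (excF (CG M) (nu M w hw3)) g = 0 := by
      unfold Cfsg.indFun
      rw [Finset.sum_eq_zero, mul_zero]
      intro x _
      by_cases hmem : x⁻¹ * g * x ∈ CG M
      · rw [extendByZero_of_mem (CG M) _ hmem]
        unfold excF
        obtain ⟨p, hp, hpe⟩ := (mem_CG M _).1 hmem
        have hν := nu_eq M w hw3 ⟨x⁻¹ * g * x, hmem⟩ p hp hpe.symm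
        by_cases h0 : ee p % 3 = 0
        · rw [hν, pow_eq_pow_mod _ hw3, h0, pow_zero]
          simp
        · exfalso
          have hA : inA1 p = true := (inA1_iff p).2 ⟨hp, h0⟩
          exact hg x⁻¹ p hA (by rw [inv_inv]; exact hpe.symm)
      · exact extendByZero_of_not_mem (CG M) _ hmem
    have := hval g
    rw [hzero] at this
    linear_combination this
  · intro p hpA
    obtain ⟨hpC, hp0⟩ := (inA1_iff p).1 hpA
    have hmem : M.ψ p ∈ CG M := (mem_CG M _).2 ⟨p, hpC, rfl⟩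
    have hΘ := exc_theta_apply (CG M) N (nu M w hw3) hCN hcard hnorm hinv hTI ⟨M.ψ p, hmem⟩
    rw [nu_eq M w hw3 ⟨M.ψ p, hmem⟩ p hpC rfl] at hΘ
    have hs := hwsum (ee p) hp0
    have hv := hval (M.ψ p)
    have e1 : 1 + χ₂ (M.ψ p) - χ₁ (M.ψ p) =
        2 - ((w ^ ee p : ℂˣ) : ℂ) - (((w ^ ee p)⁻¹ : ℂˣ) : ℂ) := hv.symm.trans hΘ
    linear_combination (-1 : ℂ) * e1 + hs

end Cfsg.Agent.Lib.Helper20.S3805
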